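import Cfsg.Agent.H395.FR.Fix
import Cfsg.Agent.H797.FQ.OC3
import Cfsg.Agent.H572.FR.Gen
import Cfsg.Agent.H224.FR.Conj

/-!
# The elements of the extraspecial radical of `F₄(q)`, `q` odd (S2452; box (Q1) of helper395)

`A = EE K AA` (order `q ^ 7`, the roots `41, ..., 47`), `Q = VV K`, `Z` the root group of the highest root.

* `comm_AA`, `VV_nrm` : the facts on `A`;
* `card_cen` : `u ∈ Q` with coordinate `24` not zero: `q ^ 2 |C_A(u)| ≤ |A|`;
* `norm_Q` : `‖χ a‖ ≤ r χ(1)` on `A - 1` gives `‖χ u‖ ≤ (r + q ^ (-2)) χ(1)` on `Q - 1`.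
-/

set_option autoImplicit false
set_option linter.unusedSectionVars false

namespace Cfsg.Agent.H534.FR

open Module Subgroup
open Cfsg.Agent.Tits.Roots Cfsg.Agent.Nodes.BNOf Cfsg.Agent.Nodes.RGDChev Cfsg.Agent.KFacts.RgdChevCoord
  Cfsg.Agent.Nodes.Bruhat Cfsg.Agent.Nodes.LeviDec Cfsg.Agent.KFacts.RgdPar Cfsg.Agent.H225.PPow
open Cfsg.Lie Cfsg.Agent.ChevalleyStructure Cfsg.Agent.ChevalleyStructure.CoxeterGeomTypes
open Cfsg.Agent.H701.F43.Cent (hF cF nroots VV idxV idxM)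
open Cfsg.Agent.H224.FR (EE AA X_le_EE EE_le exists_conj)
open Cfsg.Agent.H797.FQ (e E R L14 MM' conj46 unique E_mem_VV e_mem_VV exists_24 exists_R L14_sub tA PP)

universe u

variable {K : Type u} [Field K] [Finite K]

theorem AA_lt : ∀ r ∈ AA, r < 48 := by decide

theorem comm_AA (h2 : (2 : K) ≠ 0) {a b : ↥(chevF4.group K)} (ha : a ∈ EE K AA) (hb : b ∈ EE K AA) :
    a * b = b * a := by
  obtain ⟨g, hg⟩ := exists_conj (K := K)
  rw [hg] at ha hb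
  obtain ⟨x, hx, rfl⟩ := ha
  obtain ⟨y, hy, rfl⟩ := hb
  rw [← map_mul, ← map_mul, Cfsg.Agent.H572.FR.comm_EE h2 hx hy]

theorem e_mem_AA {r : ℕ} (hr : r ∈ AA) (t : K) : e r t ∈ EE K AA :=
  X_le_EE hr ((mem_XX_vec hF (by rw [nroots]; exact AA_lt r hr)).2 ⟨t, rfl⟩)

theorem tabN : ∀ s ∈ idxV, ∀ r ∈ AA, s ≠ r → r ≠ chevF4.neg s ∧ ∀ c ∈ chevF4.commTerms s r, c.1 ∈ AA := by
  decide +kernel

theorem conj_mem {s : ℕ} (hs : s ∈ idxV) (t : K) {y : ↥(chevF4.group K)} (hy : y ∈ EE K AA) :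
    e s t * y * (e s t)⁻¹ ∈ EE K AA := by
  have h : EE K AA ≤ (EE K AA).comap (MulAut.conj (e s t)).toMonoidHom := by
    refine EE_le fun r hr y hy => ?_
    obtain ⟨x, rfl⟩ := (mem_XX_vec hF (by rw [nroots]; exact AA_lt r hr)).1 hy
    show e s t * e r x * (e s t)⁻¹ ∈ EE K AA
    by_cases hsr : s = r
    · subst hsr
      exact mul_mem (mul_mem (e_mem_AA hr t) (e_mem_AA hr x)) (inv_mem (e_mem_AA hr t))
    · obtain ⟨h1, h2⟩ := tabN s hs r hr hsr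
      rw [Cfsg.Agent.H797.FQ.conj_e (Cfsg.Agent.H701.F43.Cent.lt_idxV s hs) (by rw [nroots]; exact AA_lt r hr) hsr h1]
      refine mul_mem (e_mem_AA hr x) (Subgroup.list_prod_mem _ ?_)
      intro z hz
      rw [List.mem_map] at hz
      obtain ⟨c, hc, rfl⟩ := hz
      exact e_mem_AA (h2 c hc) _
  exact h hy

theorem VV_nrm : VV K ≤ normalizer (EE K AA : Set ↥(chevF4.group K)) := by
  refine RGD.Sup_le fun x hx => ?_
  obtain ⟨s, hs, rfl⟩ := Cfsg.Agent.H701.F43.Cent.mem_NotJ_iff.1 hx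
  intro y hy
  obtain ⟨t, rfl⟩ := (mem_XX_vec hF (Cfsg.Agent.H701.F43.Cent.lt_idxV s hs)).1 hy
  rw [mem_normalizer_iff]
  intro z
  refine ⟨fun hz => conj_mem hs t hz, fun hz => ?_⟩
  have h1 := conj_mem hs (-t) hz
  have h2 : e s (-t) = (e s t)⁻¹ := ex_neg hF s t
  rw [h2, inv_inv] at h1
  have h3 : (e s t)⁻¹ * (ex hF s t * z * (ex hF s t)⁻¹) * e s t = z := by
    show (ex hF s t)⁻¹ * (ex hF s t * z * (ex hF s t)⁻¹) * ex hF s t = z
    group
  rwa [h3] at h1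

/-- **the centraliser in `A`** -/
theorem card_cen {u : ↥(chevF4.group K)} {c : ℕ → K} (hu : R u c) (h24 : c 24 ≠ 0) :
    Nat.card K ^ 2 * Nat.card ↥(EE K AA ⊓ centralizer {u}) ≤ Nat.card ↥(EE K AA) := by
  classical
  have hR : ∀ t : K, R (e 41 t * u * (e 41 t)⁻¹) (MM' 41 t c) := fun t => hu.conj (by decide) t
  choose b hb using hR
  have h1 : ∀ t : K, MM' 41 t c 24 = c 24 := by
    intro t
    rw [Cfsg.Agent.H797.FQ.MM'_apply 41 t c (by decide), (tA 41 (by decide)).1, List.map_nil, List.sum_nil, add_zero]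
  have h3 : ∀ t : K, MM' 41 t c 42 = c 42 - t * c 24 := by
    intro t
    rw [Cfsg.Agent.H797.FQ.MM'_apply 41 t c (by decide), (tA 41 (by decide)).2 41 (by decide), if_pos rfl, List.map_cons,
      List.map_nil, List.sum_cons, List.sum_nil]
    simp only [Int.cast_neg, Int.cast_one, pow_one]
    ring
  let Φ : (K × K) × ↥(EE K AA ⊓ centralizer {u}) → ↥(EE K AA) := fun x =>
    ⟨e 46 x.1.2 * e 41 x.1.1 * x.2, mul_mem (mul_mem (e_mem_AA (by decide) _) (e_mem_AA (by decide) _)) x.2.2.1⟩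
  have hcj : ∀ x, (Φ x : ↥(chevF4.group K)) * u * (Φ x : ↥(chevF4.group K))⁻¹ =
      E L14 (MM' 41 x.1.1 c) * e 47 (b x.1.1 - x.1.2 * c 24) := by
    intro x
    have h4 := mem_centralizer_singleton_iff.1 x.2.2.2
    have h5 : (x.2 : ↥(chevF4.group K)) * u * (x.2 : ↥(chevF4.group K))⁻¹ = u := by
      rw [mul_inv_eq_iff_eq_mul]
      exact h4
    have h6 : (Φ x : ↥(chevF4.group K)) * u * (Φ x : ↥(chevF4.group K))⁻¹ =
        e 46 x.1.2 * (e 41 x.1.1 * ((x.2 : ↥(chevF4.group K)) * u * (x.2 : ↥(chevF4.group K))⁻¹) * (e 41 x.1.1)⁻¹) *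
          (e 46 x.1.2)⁻¹ := by
      show (e 46 x.1.2 * e 41 x.1.1 * (x.2 : ↥(chevF4.group K))) * u *
        (e 46 x.1.2 * e 41 x.1.1 * (x.2 : ↥(chevF4.group K)))⁻¹ = _
      group
    rw [h6, h5, hb, conj46, h1]
  have hinj : Function.Injective Φ := by
    intro x y hxy
    have h4 := hcj x
    rw [hxy, hcj y] at h4
    obtain ⟨h5, h6⟩ := unique h4
    have h7 := h5 42 (by decide)
    rw [h3, h3] at h7
    have h8 : y.1.1 = x.1.1 := mul_right_cancel₀ h24 (sub_right_injective h7)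
    rw [h8] at h6
    have h9 : y.1.2 = x.1.2 := mul_right_cancel₀ h24 (sub_right_injective h6)
    have h10 : (Φ x : ↥(chevF4.group K)) = Φ y := congrArg Subtype.val hxy
    have h11 : (e 46 x.1.2 * e 41 x.1.1 * (x.2 : ↥(chevF4.group K))) =
        e 46 y.1.2 * e 41 y.1.1 * (y.2 : ↥(chevF4.group K)) := h10
    rw [h8, h9] at h11
    have h12 := mul_left_cancel h11
    exact Prod.ext (Prod.ext h8.symm h9.symm) (Subtype.ext h12)
  have h4 := Nat.card_le_card_of_injective Φ hinj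
  rw [Nat.card_prod, Nat.card_prod, ← pow_two] at h4
  exact h4

/-- the elements of `Q` outside `Z` -/
theorem norm_Q' (h2 : (2 : K) ≠ 0) {V : Type*} [AddCommGroup V] [Module ℂ V] [FiniteDimensional ℂ V]
    (ρ : Representation ℂ ↥(chevF4.group K) V) {r : ℝ} (hr : 0 ≤ r)
    (h : ∀ a ∈ EE K AA, a ≠ 1 → ‖ρ.character a‖ ≤ r * finrank ℂ V) {u : ↥(chevF4.group K)} (hu : u ∈ VV K)
    (hu' : u ∉ XX chevF4 4 K (vec chevF4 4 47)) :
    ‖ρ.character u‖ ≤ (r + ((Nat.card K : ℝ) ^ 2)⁻¹) * finrank ℂ V := by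
  obtain ⟨c, hc⟩ := exists_R hu
  obtain ⟨g, hg, d, hd, h24⟩ := exists_24 h2 hc hu'
  have h3 : ρ.character (g * u * g⁻¹) = ρ.character u := Representation.char_conj _ _ _
  have h4 : g * u * g⁻¹ ∈ VV K := by
    obtain ⟨b, hb⟩ := hd
    rw [hb]
    exact mul_mem (E_mem_VV L14_sub _) (e_mem_VV (by decide) _)
  have h5 := Cfsg.Agent.H395.FR.bound_abelian ρ (Q := EE K AA) (A := EE K AA) (fun a ha b hb => comm_AA h2 ha hb)
    le_rfl (VV_nrm h4) hr h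
  rw [h3] at h5
  refine h5.trans ?_
  have hq : (0 : ℝ) < (Nat.card K : ℝ) ^ 2 := by
    have : (0 : ℝ) < Nat.card K := by exact_mod_cast Nat.card_pos
    positivity
  have hA : (0 : ℝ) < Nat.card ↥(EE K AA) := by exact_mod_cast Nat.card_pos
  have h6 : (Nat.card ↥(EE K AA ⊓ centralizer {g * u * g⁻¹}) : ℝ) / Nat.card ↥(EE K AA) ≤ ((Nat.card K : ℝ) ^ 2)⁻¹ := by
    rw [div_le_iff₀ hA, ← div_eq_inv_mul, le_div_iff₀ hq, mul_comm]
    exact_mod_cast card_cen hd h24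
  gcongr

/-- **the elements of `Q`** -/
theorem norm_Q (h2 : (2 : K) ≠ 0) {V : Type*} [AddCommGroup V] [Module ℂ V] [FiniteDimensional ℂ V]
    (ρ : Representation ℂ ↥(chevF4.group K) V) {r : ℝ} (hr : 0 ≤ r)
    (h : ∀ a ∈ EE K AA, a ≠ 1 → ‖ρ.character a‖ ≤ r * finrank ℂ V) {u : ↥(chevF4.group K)} (hu : u ∈ VV K)
    (hu1 : u ≠ 1) : ‖ρ.character u‖ ≤ (r + ((Nat.card K : ℝ) ^ 2)⁻¹) * finrank ℂ V := by
  by_cases hu' : u ∈ XX chevF4 4 K (vec chevF4 4 47)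
  · refine (h u (X_le_EE (by decide) hu') hu1).trans ?_
    have : (0 : ℝ) ≤ ((Nat.card K : ℝ) ^ 2)⁻¹ := by positivity
    gcongr
    linarith
  · exact norm_Q' h2 ρ hr h hu hu'

end Cfsg.Agent.H534.FR
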